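import Cfsg.Agent.H791.Kite.UnitEight

/-!
# The unitary rows with four prime divisors (helper791, task KFOUR-B of S4919)

In the form of `Real (.psu n q) S` (`OrdDiv.Main`).
-/

set_option autoImplicit false

namespace Cfsg.Agent.H791.Kite

open Cfsg Cfsg.Agent.H670.Reg

universe u

/-- `PSU₃(q)`, `q = 4, 5, 7, 8, 9, 17` -/
theorem kite_psu3 {S : Type u} [Group S] {q : ℕ} (hq : q = 4 ∨ q = 5 ∨ q = 7 ∨ q = 8 ∨ q = 9 ∨ q = 17)
    (h : ∃ (F : Type) (_ : Field F) (_ : Fintype F), Fintype.card F = q ^ 2 ∧ Nonempty (S ≃* PSU 3 F q)) : Kite S := by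
  obtain ⟨F, _, _, hF, ⟨e⟩⟩ := h
  rcases hq with rfl | rfl | rfl | rfl | rfl | rfl
  · exact four hF e
  · exact five hF e
  · exact seven hF e
  · exact eight hF e
  · exact nine hF e
  · exact seventeen hF e

/-- `PSU₄(3)` -/
theorem kite_psu4_3 {S : Type u} [Group S]
    (h : ∃ (F : Type) (_ : Field F) (_ : Fintype F), Fintype.card F = 3 ^ 2 ∧ Nonempty (S ≃* PSU 4 F 3)) : Kite S := by
  obtain ⟨F, _, _, hF, ⟨e⟩⟩ := h
  exact four_three hF e

/-- `PSU₅(2)` -/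
theorem kite_psu5_2 {S : Type u} [Group S]
    (h : ∃ (F : Type) (_ : Field F) (_ : Fintype F), Fintype.card F = 2 ^ 2 ∧ Nonempty (S ≃* PSU 5 F 2)) : Kite S := by
  obtain ⟨F, _, _, hF, ⟨e⟩⟩ := h
  exact five_two hF e

end Cfsg.Agent.H791.Kite
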