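import Cfsg.Agent.H670.Reg.Defs
import Cfsg.Agent.H664.R1.U3Four
import Cfsg.Agent.H664.R1.Cusp
import Cfsg.Agent.H113.PSU.Facts
import Cfsg.Agent.H596.Degree

/-!
# Kites in the degree graphs of `PSU₃(q)`, `q = 4, 5, 7, 8, 9`, `PSU₄(3)`, `PSU₅(2)` (helper791, task of S4919)
-/

set_option autoImplicit false
set_option linter.unusedSectionVars false

namespace Cfsg.Agent.H791.Kite

open Cfsg Cfsg.Agent.H671.H5 Cfsg.Agent.H670.Reg Cfsg.Agent.H664.R1 Cfsg.Agent.H664.R1.U3
open Cfsg.Agent.H681.DegBasic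

universe u

/-- kites are transported by isomorphisms -/
theorem kite_congr {S T : Type*} [Group S] [Group T] (e : S ≃* T) (h : Kite T) : Kite S := by
  unfold Kite Adj at *
  rwa [H424.DegTools.degreeGraph_congr e]

/-- two triangles with a common edge -/
theorem kite_of {S : Type*} [Group S] {u v w z : ℕ} (hwz : w ≠ z) (h1 : Adj u v S) (h2 : Adj u w S) (h3 : Adj v w S)
    (h4 : Adj u z S) (h5 : Adj v z S) : Kite S :=
  Or.inl ⟨u, v, w, z, hwz, h1, h2, h3, h4, h5⟩

/-- adjacency from an irreducible character -/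
theorem adj_char {S : Type u} [Group S] (χ : IrrCharacter S) {a b : ℕ} (ha : a.Prime) (hb : b.Prime)
    (hab : a ≠ b) (h1 : a ∣ charDegree (χ : S → ℂ)) (h2 : b ∣ charDegree (χ : S → ℂ)) : Adj a b S :=
  adj_of_mem (n := charDegree (χ : S → ℂ)) ⟨χ, rfl⟩ ha hb hab h1 h2

theorem prime7 : Nat.Prime 7 := by norm_num
theorem prime13 : Nat.Prime 13 := by norm_num
theorem prime19 : Nat.Prime 19 := by norm_num
theorem prime43 : Nat.Prime 43 := by norm_num
theorem prime73 : Nat.Prime 73 := by norm_num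
theorem prime11 : Nat.Prime 11 := by norm_num

/-- the characteristic -/
theorem p_eq {S : Type u} [Group S] {q p r : ℕ} (D : DD S q p) (hr : r.Prime) (h : r ∣ q) : p = r :=
  (D.dvd_p hr h).symm

/-- `PSU₃(5)` -/
theorem five {S : Type u} [Group S] {F : Type*} [Field F] [Fintype F] (hF : Fintype.card F = 5 ^ 2)
    (e : S ≃* Cfsg.PSU 3 F 5) : Kite S := by
  obtain ⟨p, D⟩ := exists_DD hF (by norm_num) e
  obtain rfl := p_eq D Nat.prime_five dvd_rfl
  refine kite_of (u := 3) (v := 7) (w := 2) (z := 5) (by norm_num) ?_ ?_ ?_ ?_ ?_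
  · exact D.adjA Nat.prime_three prime7 (by norm_num) (by norm_num) (by norm_num)
  · exact D.adjA Nat.prime_three Nat.prime_two (by norm_num) (by norm_num) (by norm_num)
  · exact D.adjA prime7 Nat.prime_two (by norm_num) (by norm_num) (by norm_num)
  · exact D.adjC Nat.prime_three Nat.prime_five (by norm_num) (by norm_num) (by norm_num)
  · exact D.adjC prime7 Nat.prime_five (by norm_num) (by norm_num) (by norm_num)

/-- `PSU₃(7)` -/
theorem seven {S : Type u} [Group S] {F : Type*} [Field F] [Fintype F] (hF : Fintype.card F = 7 ^ 2)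
    (e : S ≃* Cfsg.PSU 3 F 7) : Kite S := by
  obtain ⟨p, D⟩ := exists_DD hF (by norm_num) e
  obtain rfl := p_eq D prime7 dvd_rfl
  refine kite_of (u := 2) (v := 7) (w := 3) (z := 43) (by norm_num) ?_ ?_ ?_ ?_ ?_
  · exact D.adjB Nat.prime_two prime7 (by norm_num) (by norm_num) (by norm_num)
  · exact D.adjB Nat.prime_two Nat.prime_three (by norm_num) (by norm_num) (by norm_num)
  · exact D.adjB prime7 Nat.prime_three (by norm_num) (by norm_num) (by norm_num)
  · exact D.adjA Nat.prime_two prime43 (by norm_num) (by norm_num) (by norm_num)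
  · exact D.adjC prime7 prime43 (by norm_num) (by norm_num) (by norm_num)

/-- `PSU₃(9)` -/
theorem nine {S : Type u} [Group S] {F : Type*} [Field F] [Fintype F] (hF : Fintype.card F = 9 ^ 2)
    (e : S ≃* Cfsg.PSU 3 F 9) : Kite S := by
  obtain ⟨p, D⟩ := exists_DD hF (by norm_num) e
  obtain rfl := p_eq D Nat.prime_three (by norm_num)
  refine kite_of (u := 2) (v := 73) (w := 5) (z := 3) (by norm_num) ?_ ?_ ?_ ?_ ?_
  · exact D.adjA Nat.prime_two prime73 (by norm_num) (by norm_num) (by norm_num)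
  · exact D.adjA Nat.prime_two Nat.prime_five (by norm_num) (by norm_num) (by norm_num)
  · exact D.adjA prime73 Nat.prime_five (by norm_num) (by norm_num) (by norm_num)
  · exact D.adjB Nat.prime_two Nat.prime_three (by norm_num) (by norm_num) (by norm_num)
  · exact D.adjC prime73 Nat.prime_three (by norm_num) (by norm_num) (by norm_num)

/-- `PSU₃(17)` (five prime divisors) -/
theorem seventeen {S : Type u} [Group S] {F : Type*} [Field F] [Fintype F] (hF : Fintype.card F = 17 ^ 2)
    (e : S ≃* Cfsg.PSU 3 F 17) : Kite S := by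
  obtain ⟨p, D⟩ := exists_DD hF (by norm_num) e
  refine kite_of (u := 2) (v := 3) (w := 7) (z := 13) (by norm_num) ?_ ?_ ?_ ?_ ?_
  · exact D.adjA Nat.prime_two Nat.prime_three (by norm_num) (by norm_num) (by norm_num)
  · exact D.adjA Nat.prime_two prime7 (by norm_num) (by norm_num) (by norm_num)
  · exact D.adjA Nat.prime_three prime7 (by norm_num) (by norm_num) (by norm_num)
  · exact D.adjA Nat.prime_two prime13 (by norm_num) (by norm_num) (by norm_num)
  · exact D.adjA Nat.prime_three prime13 (by norm_num) (by norm_num) (by norm_num)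

/-- `PSU₄(3)` -/
theorem four_three {S : Type u} [Group S] {F : Type*} [Field F] [Fintype F] (hF : Fintype.card F = 3 ^ 2)
    (e : S ≃* Cfsg.PSU 4 F 3) : Kite S := by
  refine kite_congr e ?_
  obtain ⟨φ₁, h1⟩ := H113.PSU.Facts.exF (F := F) (n := 4) (q := 3) hF le_rfl
  obtain ⟨φ₂, h2⟩ := H113.PSU.Facts.exG (F := F) (n := 4) (q := 3) hF le_rfl
  obtain ⟨φ₃, h3, -⟩ := H113.PSU.Facts.exA (F := F) (n := 4) (q := 3) hF le_rfl
  have e1 : charDegree (φ₁ : PSU 4 F 3 → ℂ) = 90 := by
    have : H113.PSU.Levi.uu 3 4 = 80 := by decide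
    have h' : H113.PSU.Levi.uu 3 1 = 4 := by decide
    norm_num [this, h'] at h1
    omega
  have e2 : charDegree (φ₂ : PSU 4 F 3 → ℂ) = 189 := by
    have : H113.PSU.Levi.uu 3 3 = 28 := by decide
    have h' : H113.PSU.Levi.uu 3 2 = 8 := by decide
    norm_num [this, h'] at h2
    omega
  refine kite_of (u := 2) (v := 3) (w := 5) (z := 7) (by norm_num) ?_ ?_ ?_ ?_ ?_
  · exact adj_char φ₁ Nat.prime_two Nat.prime_three (by norm_num) (by rw [e1]; norm_num) (by rw [e1]; norm_num)
  · exact adj_char φ₁ Nat.prime_two Nat.prime_five (by norm_num) (by rw [e1]; norm_num) (by rw [e1]; norm_num)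
  · exact adj_char φ₁ Nat.prime_three Nat.prime_five (by norm_num) (by rw [e1]; norm_num) (by rw [e1]; norm_num)
  · exact adj_char φ₃ Nat.prime_two prime7 (by norm_num) (h3 2 Nat.prime_two ⟨3, by decide, by decide⟩)
      (h3 7 prime7 ⟨3, by decide, by decide⟩)
  · exact adj_char φ₂ Nat.prime_three prime7 (by norm_num) (by rw [e2]; norm_num) (by rw [e2]; norm_num)

/-- `PSU₅(2)` -/
theorem five_two {S : Type u} [Group S] {F : Type*} [Field F] [Fintype F] (hF : Fintype.card F = 2 ^ 2)
    (e : S ≃* Cfsg.PSU 5 F 2) : Kite S := by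
  refine kite_congr e ?_
  obtain ⟨φ₁, h1⟩ := H113.PSU.Facts.exF (F := F) (n := 5) (q := 2) hF (by norm_num)
  obtain ⟨φ₂, h2⟩ := H113.PSU.Facts.exG (F := F) (n := 5) (q := 2) hF (by norm_num)
  obtain ⟨φ₃, h3, -⟩ := H113.PSU.Facts.exA (F := F) (n := 5) (q := 2) hF (by norm_num)
  have e1 : charDegree (φ₁ : PSU 5 F 2 → ℂ) = 44 := by
    have : H113.PSU.Levi.uu 2 5 = 33 := by decide
    have h' : H113.PSU.Levi.uu 2 2 = 3 := by decide
    norm_num [this, h'] at h1
    omega
  have e2 : charDegree (φ₂ : PSU 5 F 2 → ℂ) = 120 := by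
    have : H113.PSU.Levi.uu 2 4 = 15 := by decide
    have h' : H113.PSU.Levi.uu 2 3 = 9 := by decide
    norm_num [this, h'] at h2
    omega
  refine kite_of (u := 2) (v := 3) (w := 5) (z := 11) (by norm_num) ?_ ?_ ?_ ?_ ?_
  · exact adj_char φ₂ Nat.prime_two Nat.prime_three (by norm_num) (by rw [e2]; norm_num) (by rw [e2]; norm_num)
  · exact adj_char φ₂ Nat.prime_two Nat.prime_five (by norm_num) (by rw [e2]; norm_num) (by rw [e2]; norm_num)
  · exact adj_char φ₂ Nat.prime_three Nat.prime_five (by norm_num) (by rw [e2]; norm_num) (by rw [e2]; norm_num)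
  · exact adj_char φ₁ Nat.prime_two prime11 (by norm_num) (by rw [e1]; norm_num) (by rw [e1]; norm_num)
  · exact adj_char φ₃ Nat.prime_three prime11 (by norm_num) (h3 3 Nat.prime_three ⟨5, by decide, by decide⟩)
      (h3 11 prime11 ⟨5, by decide, by decide⟩)

end Cfsg.Agent.H791.Kite
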