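import Cfsg.Agent.H791.Kite.UnitFour
import Cfsg.Agent.S0280
import Cfsg.Agent.H424.DegTools

/-!
# `PSU(3,8)`: the prime `7` is adjacent to `3` or to `19` (helper791)

A cuspidal constituent of a Gelfand-Graev type character of `PGU(3,8)` has degree `63 c + 8 t`, `1 ≤ c ≤ 7`, divisible by `7`;
it is divisible by `19` or by `9`.
-/

set_option autoImplicit false
set_option linter.unusedSectionVars false

namespace Cfsg.Agent.H791.Kite

open Matrix Cfsg Cfsg.Agent.LieRecognition.PSUThreeSylow Cfsg.Agent.LieClassical.HermBasic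
open Cfsg.Agent.H681.DegBasic Cfsg.Agent.H664.R1 Cfsg.Agent.H664.R1.U3 Cfsg.Agent.H671.H5 Cfsg.Agent.H670.Reg
open scoped ComplexConjugate

universe u

/-- the arithmetic of the degrees -/
theorem arith_eight {n c t : ℕ} (hn : n ∣ 512 * 63 * 513) (h7 : 7 ∣ n) (hc1 : 1 ≤ c) (hc7 : c ≤ 7)
    (hnt : n = 63 * c + 8 * t) : 7 * 19 ∣ n ∨ 7 * 9 ∣ n := by
  obtain ⟨m, rfl⟩ := h7
  have hm : m ∣ 512 * 9 * 513 := by
    have h : 7 * m ∣ 7 * (512 * 9 * 513) := by
      refine hn.trans (dvd_of_eq (by norm_num))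
    exact Nat.dvd_of_mul_dvd_mul_left (by norm_num) h
  obtain ⟨s, rfl⟩ : 7 ∣ t := by omega
  have hms : m = 9 * c + 8 * s := by omega
  by_cases h19 : 19 ∣ m
  · exact Or.inl (Nat.mul_dvd_mul_left _ h19)
  right
  apply Nat.mul_dvd_mul_left
  by_contra h9
  have h1 : m ∣ 2 ^ 9 * 3 ^ 5 := by
    have h2 : Nat.Coprime m 19 := by
      rw [Nat.coprime_comm, Nat.Prime.coprime_iff_not_dvd (by norm_num)]
      exact h19
    refine h2.dvd_of_dvd_mul_left (m := 19) ?_
    exact hm.trans (dvd_of_eq (by norm_num))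
  obtain ⟨a, b, ha, hb, rfl⟩ := (Nat.dvd_mul).1 h1
  obtain ⟨i, hi, rfl⟩ := (Nat.dvd_prime_pow Nat.prime_two).1 ha
  obtain ⟨j, hj, rfl⟩ := (Nat.dvd_prime_pow Nat.prime_three).1 hb
  have hj1 : j ≤ 1 := by
    by_contra hj2
    apply h9
    have : 3 ^ 2 ∣ 3 ^ j := pow_dvd_pow 3 (by omega)
    exact this.mul_left _
  interval_cases j <;> interval_cases i <;> omega

section eight

variable {F : Type*} [Field F] [Fintype F] {σ : F →+* F} [hσ : Fact (∀ x, σ (σ x) = x)]

/-- **The cuspidal character.** -/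
theorem exists_cusp_eight (hF : Fintype.card F = 8 ^ 2) (hs : ∀ x, σ x = x ^ 8) :
    ∃ n ∈ charDegrees (PG σ), 7 * 19 ∣ n ∨ 7 * 9 ∣ n := by
  classical
  have : Finite (GUJ σ) := inferInstance
  have : Finite (PG σ) := inferInstance
  have := Fintype.ofFinite (PG σ)
  have := Fintype.ofFinite (spP σ).U
  have := Characters.Core.finite_irr (G := PG σ)
  have := Fintype.ofFinite (IrrCharacter (PG σ))
  have H := fus (σ := σ) hF (by norm_num) hs
  obtain ⟨θ, hθ1, hθX, hfree⟩ := exists_theta (σ := σ) hF hs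
  obtain ⟨x, hx, hx1⟩ := H.exists_x
  obtain ⟨u, hu, hu1⟩ := H.exists_u
  have hcardG : Nat.card (PG σ) = 512 * 63 * 513 := by
    rw [(spP σ).card_G, (spP σ).card_B, card_UP hF hs, card_TP hF hs]
    norm_num
  -- the values
  have hv := fun ψ : IrrCharacter (PG σ) => H.values ψ.2 hx hx1 hu hu1
  choose n m k a b h1 h2 h3 h4 h5 h6 h7 h8 h9 using hv
  -- the Gelfand-Graev character
  obtain ⟨c, hc⟩ := Characters.Core.exists_nat_comb ((spP σ).isCharacter_gg θ)
  have hcψ : ∀ ψ : IrrCharacter (PG σ), classInner ((spP σ).gg θ) (ψ : PG σ → ℂ) = c ψ := by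
    intro ψ
    rw [hc, Characters.Core.classInner_sum_nsmul_irr]
  have hcθ : ∀ ψ : IrrCharacter (PG σ),
      classInner (fun u : (spP σ).U => (ψ : PG σ → ℂ) u) (fun u => (θ u : ℂ)) = c ψ := by
    intro ψ
    rw [← Complex.conj_natCast, ← hcψ, (spP σ).inner_gg θ ψ.2,
      Characters.Core.classInner_conj_symm]
  have hckb : ∀ ψ : IrrCharacter (PG σ), (c ψ : ℤ) = k ψ - b ψ := by
    intro ψ
    have e := H.inner_theta (Characters.Core.isIrr_isClassFunction ψ.2) hu hu1 θ hθ1 hθX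
    rw [hcθ, h4, h3] at e
    exact_mod_cast e
  have hnorm : ∑ ψ : IrrCharacter (PG σ), c ψ ^ 2 = 64 := by
    have e := (spP σ).norm_gg θ hfree
    rw [hc, norm_eq_sum, card_TP hF hs] at e
    exact_mod_cast e
  -- the Steinberg character
  have hone : (spP σ).Inv (1 : (spP σ).B →* ℂˣ) := ⟨fun _ _ => rfl, fun _ _ => rfl⟩
  obtain ⟨β, hβc, hβk⟩ : ∃ β : IrrCharacter (PG σ), c β = 1 ∧ k β = 1 := by
    obtain ⟨χ, χ', hne, e, e1, e2, e3, e4, e5⟩ := H.pair hu hu1 _ hone
    have hb0 : b χ' = 0 := by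
      have := h3 χ'
      rw [e2] at this
      exact_mod_cast this.symm
    have hk0 : k χ' = 1 := by
      have := h4 χ'
      rw [e4] at this
      exact_mod_cast this.symm
    refine ⟨χ', ?_, hk0⟩
    have := hckb χ'
    rw [hk0, hb0] at this
    omega
  obtain ⟨ψ, hψθ, hψ1⟩ := (spP σ).exists_cusp θ hθ1 hfree
  rw [hcθ] at hψθ
  rw [h4] at hψ1
  have hc0 : c ψ ≠ 0 := by exact_mod_cast hψθ
  have hk : k ψ = 0 := by exact_mod_cast hψ1
  refine ⟨n ψ, mem_charDegrees.2 ⟨_, ψ.2, h1 ψ⟩, ?_⟩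
  have e1 := hckb ψ
  have e2 := h5 ψ
  have e3 := h6 ψ
  have e4 := h7 ψ
  have e5 := h9 ψ
  rw [hk] at e1 e3
  push_cast at e1 e2 e3 e4
  have hm : m ψ = 63 * c ψ := by omega
  obtain ⟨t, ht⟩ : ∃ t, n ψ = 63 * c ψ + 8 * t := by
    obtain ⟨t, ht⟩ := e4
    refine ⟨t.toNat, ?_⟩
    omega
  have hnd : n ψ ∣ 512 * 63 * 513 := by
    rw [← hcardG]
    exact dvd_card (mem_charDegrees.2 ⟨_, ψ.2, h1 ψ⟩)
  have h7n : 7 ∣ n ψ := by omega
  have hc7 : c ψ ≤ 7 := by
    have e6 : ∑ ψ' ∈ ({ψ, β} : Finset (IrrCharacter (PG σ))), c ψ' ^ 2 ≤ 64 := by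
      rw [← hnorm]
      exact Finset.sum_le_sum_of_subset (Finset.subset_univ _)
    rw [Finset.sum_pair (fun h => by rw [h, hβk] at hk; exact one_ne_zero hk), hβc] at e6
    by_contra hlt
    have : 8 ≤ c ψ := by omega
    nlinarith
  exact arith_eight hnd h7n (Nat.one_le_iff_ne_zero.2 hc0) hc7 ht

/-- The index of `PSU(3,8)` in `PGU(3,8)`. -/
theorem index_eight (hF : Fintype.card F = 8 ^ 2) (hs : ∀ x, σ x = x ^ 8) : (S σ).index = 3 := by
  have : Finite (GUJ σ) := inferInstance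
  have : Finite (PG σ) := inferInstance
  have hcardG : Nat.card (PG σ) = 512 * 63 * 513 := by
    rw [(spP σ).card_G, (spP σ).card_B, card_UP hF hs, card_TP hF hs]
    norm_num
  obtain ⟨e⟩ := nonempty_iso (σ := σ) hF hs
  have h1 := Cfsg.Agent.S0280.result hF 3 (by norm_num)
  rw [Nat.card_congr e.toEquiv] at h1
  have h2 := (S σ).card_mul_index
  simp only [Finset.prod_range_succ, Finset.prod_range_zero] at h1
  norm_num at h1
  have h3 : Nat.card (S σ) = 5515776 := by omega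
  rw [hcardG, h3] at h2
  omega

theorem degree_eight (hF : Fintype.card F = 8 ^ 2) (hs : ∀ x, σ x = x ^ 8) :
    ∃ n ∈ charDegrees (S σ), 7 ∣ n ∧ (19 ∣ n ∨ 3 ∣ n) := by
  have : Finite (GUJ σ) := inferInstance
  have : Finite (PG σ) := inferInstance
  have : (S σ).Normal := inferInstance
  obtain ⟨n, hn, h⟩ := exists_cusp_eight (σ := σ) hF hs
  obtain ⟨c, hc, hcn, hi⟩ := H424.DegTools.clifford_down (S σ) hn
  rw [index_eight hF hs] at hi
  obtain ⟨r, rfl⟩ := hcn
  have hc0 : 0 < c := pos_of_mem hc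
  rw [Nat.mul_div_cancel_left _ hc0] at hi
  refine ⟨c, hc, ?_⟩
  rcases (Nat.dvd_prime Nat.prime_three).1 hi with rfl | rfl
  · rcases h with h | h <;> omega
  · rcases h with h | h <;> omega

end eight

/-- `PSU₃(8)` -/
theorem eight {S : Type u} [Group S] {F : Type*} [Field F] [Fintype F] (hF : Fintype.card F = 8 ^ 2)
    (e : S ≃* Cfsg.PSU 3 F 8) : Kite S := by
  obtain ⟨p, D⟩ := exists_DD hF (by norm_num) e
  obtain rfl := p_eq D Nat.prime_two (by norm_num)
  obtain ⟨σ, hσ, hs, ⟨e'⟩⟩ := exists_iso hF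
  obtain ⟨n, hn, h7, h⟩ := degree_eight (σ := σ) hF hs
  have hn' := PSLTwo.mem_of_equiv (e.trans e') hn
  have a27 : Adj 2 7 S := D.adjB Nat.prime_two prime7 (by norm_num) (by norm_num) (by norm_num)
  have a23 : Adj 2 3 S := D.adjC Nat.prime_two Nat.prime_three (by norm_num) (by norm_num) (by norm_num)
  have a219 : Adj 2 19 S := D.adjC Nat.prime_two prime19 (by norm_num) (by norm_num) (by norm_num)
  have a319 : Adj 3 19 S := D.adjC Nat.prime_three prime19 (by norm_num) (by norm_num) (by norm_num)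
  rcases h with h | h
  · exact kite_of (u := 2) (v := 19) (w := 3) (z := 7) (by norm_num) a219 a23 a319.symm a27
      (adj_of_mem hn' prime19 prime7 (by norm_num) h h7)
  · exact kite_of (u := 2) (v := 3) (w := 19) (z := 7) (by norm_num) a23 a219 a319 a27
      (adj_of_mem hn' Nat.prime_three prime7 (by norm_num) h h7)

end Cfsg.Agent.H791.Kite
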